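import Mathlib
import Cfsg.Agent.W3.U2
import Cfsg.Agent.S0481
import Cfsg.Agent.Loc.MssSyl
import Cfsg.Agent.GT.TransferFrobenius
import Cfsg.Agent.GT.PGroupBasic

/-! Fusion of a subgroup of index two in the centraliser of an involution with a large extraspecial
group: if it contains `C_{Q_d}(z)` for all commuting conjugates `d`, it is stable under fusion. -/

set_option autoImplicit false
set_option linter.unusedSectionVars false

namespace Cfsg.Agent.Wk

open Cfsg.Agent.Spor Cfsg.Agent.Spor.TT Cfsg.Agent.LX Cfsg.Agent.Gr6 Cfsg.Agent.W3 Subgroup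
open scoped Cfsg.Agent.Loc.Mss

variable {G : Type*} [Group G] [Finite G] {z a b d g x y : G} {K P : Subgroup G}

theorem idx_mul (hK : K.relIndex (centralizer {z}) = 2) (hx : Commute z x) (hy : Commute z y) :
    x * y ∈ K ↔ (x ∈ K ↔ y ∈ K) :=
  mul_mem_iff_of_index_two hK (a := ⟨x, mem_cent.2 hx⟩) (b := ⟨y, mem_cent.2 hy⟩)

theorem idx_cj (hK : K.relIndex (centralizer {z}) = 2) (hx : Commute z x) (hy : Commute z y) :
    cj x y ∈ K ↔ y ∈ K := by
  rw [cj_def, idx_mul hK (hx.mul_right hy) hx.inv_right, idx_mul hK hx hy, inv_mem_iff]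
  tauto

theorem idx_nm (hK : K.relIndex (centralizer {z}) = 2) (hx : Commute z x) (hy : Commute z y) :
    nm x y ∈ K := by
  rw [nm, idx_mul hK hy ((commute_cj_right_of hx.symm).2 hy.inv_right), idx_cj hK hx hy.inv_right,
    inv_mem_iff]

theorem bg_symm (h : WP.Bg z) (ha : IsConj z a) (hq : a ∈ QQ z) : z ∈ QQ a := by
  obtain ⟨g, rfl⟩ := exists_cj ha
  rw [QQ_cj]
  exact h.lg.sym_of_pCore le_rfl g hq

theorem bg_syl (h : WP.Bg z) : ∃ T : Sylow 2 G, (T : Subgroup G) ≤ centralizer {z} :=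
  (S0481.result z h.es.orderOf_z (QQ z) (fun _ hx => mem_cent.2 (h.comm hx))
    (fun _ hg _ hq => h.cj_mem (mem_cent.1 hg) hq) h.es.isPGroup h.es.card_center
    (fun x => h.es.mem_center_iff'.2 (by simpa [sq] using h.es.sq x x.2)) h.lg.centralizer_le).1

/-- `P` centralises the conjugate of `z` by `g`. -/
def Om (z : G) (P : Subgroup G) (g : G) : Prop := ∀ y ∈ P, Commute z (cj g⁻¹ y)

/-- The conjugates of `K` by `g` and `g'` agree on `P`. -/
def Ag (K P : Subgroup G) (g g' : G) : Prop := ∀ y ∈ P, (cj g⁻¹ y ∈ K ↔ cj g'⁻¹ y ∈ K)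

omit [Finite G] in
theorem Om.mul (h : Om z P g) (hx : x ∈ 𝐍[P]) : Om z P (x * g) := fun y hy => by
  rw [mul_inv_rev, ← cj_cj]
  exact h _ (Loc.Mss.conj_mem_of_norm (inv_mem hx) hy)

theorem stable (h : WP.Bg z) (hK : K.relIndex (centralizer {z}) = 2)
    (H0 : ∀ d, IsConj z d → Commute z d → ∀ b ∈ QQ d, Commute z b → b ∈ K) (P : Subgroup G) :
    IsPGroup 2 P → ∀ g g', Om z P g → Om z P g' → Ag K P g g' := by
  have : Fact (Nat.Prime 2) := ⟨Nat.prime_two⟩
  induction P using WellFoundedGT.induction with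
  | ind P ih =>
  intro hP
  by_cases A : ∃ g0, Om z P g0 ∧ QQ (cj g0 z) ≤ P
  · obtain ⟨g0, h0, l0⟩ := A
    have hb := h.of_isConj (LX.isConj_cj g0 z)
    have key : ∀ g, Om z P g → Ag K P g g0 := fun g hg y hy => by
      have c : ∀ q ∈ QQ (cj g0 z), cj g z * q = q * cj g z := fun q hq =>
        commute_cj_left.2 (hg q (l0 hq))
      have e := (hb.es.center _ (hb.lg.centralizer_le fun q hq => (c q hq).symm) c).resolve_left
        (h.of_isConj (LX.isConj_cj g z)).ne_one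
      have k : Commute z (g0⁻¹ * g) :=
        (cj_eq_self_iff.1 (show cj (g0⁻¹ * g) z = z by rw [← cj_cj, e, cj_inv_cj])).symm
      rw [← idx_cj hK k (hg y hy), cj_cj, mul_inv_cancel_right]
    exact fun g g' hg hg' y hy => (key g hg y hy).trans (key g' hg' y hy).symm
  push Not at A
  let M : Subgroup G :=
    { carrier := {m | m ∈ 𝐍[P] ∧ ∀ g, Om z P g → Ag K P (m * g) g}
      one_mem' := ⟨one_mem _, fun g _ y _ => by rw [one_mul]⟩
      mul_mem' := fun {m m'} k k' => ⟨mul_mem k.1 k'.1, fun g hg y hy => by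
        rw [mul_assoc]; exact (k.2 _ (hg.mul k'.1) y hy).trans (k'.2 g hg y hy)⟩
      inv_mem' := fun {m} k => ⟨inv_mem k.1, fun g hg y hy => by
        have := k.2 _ (hg.mul (inv_mem k.1)) y hy
        rw [mul_inv_cancel_left] at this
        exact this.symm⟩ }
  have PM : P ≤ M := fun p hp => ⟨le_normalizer hp, fun g hg y hy => by
    rw [mul_inv_rev, ← cj_cj, cj_dist, idx_cj hK (hg _ (inv_mem hp)) (hg y hy)]⟩
  have up : ∀ g, Om z P g → ∃ r ∈ M, r ∉ P ∧ r ∈ QQ (cj g z) := fun g hg => by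
    have hb := h.of_isConj (LX.isConj_cj g z)
    have c : ∀ y ∈ P, Commute (cj g z) y := fun y hy => commute_cj_left.2 (hg y hy)
    by_cases k : cj g z ∈ P
    swap
    · exact ⟨_, ⟨centralizer_le_normalizer _ fun y hy => (c y hy).symm, fun g' _ y hy => by
        rw [mul_inv_rev, ← cj_cj, cj_of_commute (c y hy).inv_left]⟩, k, hb.z_mem⟩
    have n : P ≤ 𝐍[QQ (cj g z)] := fun y hy => hb.lg.mem_normalizer (c y hy)
    have := (Loc.Mss.pg_sup' hb.es.isPGroup hP n).isNilpotent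
    obtain ⟨x, hx, x1, x2⟩ := GT.PG.exists_mem_normalizer_notMem
      (lt_of_le_of_ne le_sup_right fun e => A g hg (le_sup_left.trans e.ge) : P < QQ (cj g z) ⊔ P)
    obtain ⟨r, hr, p, hp, rfl⟩ := (Loc.Mss.mem_sup_norm n).1 hx
    have rn : r ∈ 𝐍[P] := by simpa using mul_mem x2 (inv_mem (le_normalizer hp))
    refine ⟨r, ⟨rn, fun g' hg' y hy => ?_⟩, fun l => x1 (mul_mem l hp), hr⟩
    have m0 : cj r⁻¹ y ∈ P := Loc.Mss.conj_mem_of_norm (inv_mem rn) hy
    have m : y⁻¹ * cj r⁻¹ y ∈ P := mul_mem (inv_mem hy) m0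
    have m' : y⁻¹ * cj r⁻¹ y ∈ QQ (cj g z) := by
      have := mul_mem (hb.cj_mem (c y hy).inv_right (inv_mem hr)) hr
      simpa [cj_def, mul_assoc] using this
    have := H0 (cj g'⁻¹ (cj g z)) ((LX.isConj_cj g z).trans (LX.isConj_cj _ _)) (hg' _ k) _
      (cj_mem_QQ.2 m') (hg' _ m)
    rw [cj_mul, cj_inv, idx_mul hK (hg' y hy).inv_right (hg' _ m0), inv_mem_iff] at this
    rw [mul_inv_rev, ← cj_cj]
    exact this.symm
  obtain ⟨S, hS⟩ := Loc.Mss.Syl.exists 2 M
  obtain ⟨T, hT⟩ := bg_syl h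
  obtain ⟨g0, -, l0⟩ := (Loc.Mss.Syl.of_sylow T).conj_le hS.pg le_top
  have o0 : Om z S g0⁻¹ := fun y hy => by
    rw [inv_inv]; exact mem_cent.1 (hT (Loc.Mss.cj_le_iff.1 l0 y hy))
  have key : ∀ g, Om z P g → Ag K P g g0⁻¹ := fun g hg => by
    obtain ⟨r, rM, rP, rQ⟩ := up g hg
    have hb := h.of_isConj (LX.isConj_cj g z)
    have pg : IsPGroup 2 ↥(P ⊔ zpowers r) := Loc.Mss.pg_sup' hP
      (hb.es.isPGroup.to_le (zpowers_le.2 rQ)) (zpowers_le.2 rM.1)
    obtain ⟨m, hm, l⟩ := hS.conj_le pg (sup_le PM (zpowers_le.2 rM))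
    have e := Loc.Mss.cj_of_norm hm.1
    have lt : P < cj(m, P ⊔ zpowers r) := by
      conv_lhs => rw [← e]
      exact Loc.Mss.cj_lt_cj.2 (lt_of_le_of_ne le_sup_left fun k =>
        rP (k.ge (mem_sup_right (mem_zpowers r))))
    have o : P ⊔ zpowers r ≤ centralizer {cj g z} := sup_le
      (fun y hy => mem_cent.2 (commute_cj_left.2 (hg y hy))) (zpowers_le.2 (mem_cent.2 (hb.comm rQ)))
    have := ih _ lt (Loc.Mss.pg_cj pg m) (m * g) g0⁻¹ (fun y hy => by
      rw [mul_inv_rev, ← cj_cj, ← commute_cj_left]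
      have := mem_cent.1 (o (Loc.Mss.mem_cj.1 hy))
      rwa [cj_def m⁻¹, inv_inv]) fun y hy => o0 y (l hy)
    exact fun y hy => (hm.2 g hg y hy).symm.trans (this y (lt.le hy))
  exact fun g g' hg hg' y hy => (key g hg y hy).trans (key g' hg' y hy).symm

/-- If `G = O²(G)`, some `C_{Q_d}(z)` is not contained in the subgroup of index two. -/
theorem exists_fus (h : WP.Bg z) (hres : pResidual 2 G = ⊤) (hK : K.relIndex (centralizer {z}) = 2) :
    ∃ d, IsConj z d ∧ Commute z d ∧ ∃ b ∈ QQ d, Commute z b ∧ b ∉ K := by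
  have : Fact (Nat.Prime 2) := ⟨Nat.prime_two⟩
  by_contra k
  push Not at k
  obtain ⟨T, hT⟩ := bg_syl h
  have l : (T : Subgroup G) ≤ K := by
    refine le_trans (le_inf le_rfl (hres ▸ le_top)) ((GT.Tr.sylow_inf_pResidual_le_focalSubgroup T).trans
      (GT.Tr.focalSubgroup_le_iff.2 fun x hx g hg => ?_))
    rw [idx_mul hK (Commute.inv_right (mem_cent.1 (hT hx))) (mem_cent.1 (hT hg)), inv_mem_iff]
    have := stable h hK k (zpowers x) (T.2.to_le (zpowers_le.2 hx)) 1 g⁻¹ (fun y hy => by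
      rw [inv_one, cj_one]; exact mem_cent.1 (hT (zpowers_le.2 hx hy))) (fun y ⟨i, hi⟩ => by
      rw [inv_inv, ← hi, cj_def, ← conj_zpow]; exact Commute.zpow_right (mem_cent.1 (hT hg)) i)
      x (mem_zpowers x)
    rwa [inv_one, cj_one, inv_inv] at this
  exact T.not_dvd_index ((hK ▸ relIndex_dvd_of_le_left _ l).trans (relIndex_dvd_index_of_le hT))

end Cfsg.Agent.Wk
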