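import Mathlib
import Cfsg.Agent.Wk.Fus
import Cfsg.Agent.Wk.Large

/-! Squares of elements of `C_{Q_d}(z)` lie in the derived group of `C(z)`. -/

set_option autoImplicit false
set_option linter.unusedSectionVars false

namespace Cfsg.Agent.Wk

open Cfsg.Agent.Spor Cfsg.Agent.Spor.TT Cfsg.Agent.LX Cfsg.Agent.Gr6 Cfsg.Agent.W3 Subgroup

variable {G : Type*} [Group G] [Finite G] {z a b d e f g t u v w x y : G}

theorem nm_mul_eqv (h : WP.Bg z) (hg : Commute z g) (hv : v ∈ QQ z) (hw : w ∈ QQ z) :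
    Eqv z (nm g (v * w)) (nm g v * nm g w) :=
  eqv_of_bf h (nm_mem h hg (mul_mem hv hw)) (mul_mem (nm_mem h hg hv) (nm_mem h hg hw)) fun f hf => by
    rw [h.es.aes.bf_mul_right (nm_mem h hg hv) (nm_mem h hg hw) hf, bf_nm' h hg hv hf, bf_nm' h hg hw hf,
      bf_nm' h hg (mul_mem hv hw) hf, h.es.aes.bf_mul_right hv hw (nm_mem h hg.inv_right hf)]

theorem exists_nm (h : WP.Bg z) (hg : Commute z g) (hx : x ∈ QQ z)
    (k : ∀ v ∈ QQ z, Eqv z (cj g v) v → Commute v x) : ∃ v ∈ QQ z, Eqv z x (nm g v) := by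
  have mem : ∀ {x v}, v ∈ QQ z → Eqv z x (nm g v) → x ∈ QQ z := fun hv l => by
    rcases l with rfl | rfl
    exacts [nm_mem h hg hv, mul_mem h.z_mem (nm_mem h hg hv)]
  have one : nm g 1 = 1 := nm_eq_one_iff.2 (Commute.one_right g)
  let W : Subgroup G :=
    { carrier := {x | ∃ v ∈ QQ z, Eqv z x (nm g v)}
      one_mem' := ⟨1, one_mem _, Or.inl one.symm⟩
      mul_mem' := fun ⟨v, hv, l⟩ ⟨w, hw, l'⟩ => ⟨_, mul_mem hv hw,
        (l.mul h.sq l' (h.comm (mem hv l))).trans h.sq ((nm_mul_eqv h hg hv hw).symm h.sq)⟩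
      inv_mem' := fun ⟨v, hv, l⟩ => ⟨v, hv, (h.es.aes.eqv_inv (mem hv l)).trans h.sq l⟩ }
  refine h.es.mem_of_comm_centralizer (A := W) (fun x ⟨v, hv, l⟩ => mem hv l)
    ⟨1, one_mem _, Or.inr (by rw [one, mul_one])⟩ hx fun f hf c => k f hf ?_
  have := eqv_inv h hg.inv_right ((eqv_iff_nm h hf).2 (h.es.center _ (nm_mem h hg.inv_right hf)
    fun e he => bf_eq_zero.1 ((bf_nm' h hg he hf).symm.trans (bf_eq_zero.2 (c _ ⟨e, he, Or.inl rfl⟩)))))
  rwa [inv_inv] at this

omit [Finite G] in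
theorem cj_nm_self (ht : t * t = 1) (v : G) : cj t (nm t v) = (nm t v)⁻¹ := by
  rw [nm, cj_mul, cj_cj, ht, cj_one, mul_inv_rev, ← cj_inv, inv_inv]

omit [Finite G] in
theorem nm_z_mul (zb : Commute z b) (zu : Commute z u) : nm b (z * u) = nm b u := by
  have : nm b (z * u) = cj z (u * b * u⁻¹) * b⁻¹ := by simp only [nm, cj_def]; group
  rw [this, cj_of_commute ((zu.mul_right zb).mul_right zu.inv_right), nm, cj_def]
  group

theorem sq_of_nm (h : WP.Bg z) (ht : t * t = 1) (hg : Commute z t) (hv : v ∈ QQ z)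
    (k : Eqv z x (nm t v)) (c : Commute t x) : x * x = 1 := by
  have := cj_nm_self ht v
  rw [cj_of_commute (comm_of_eqv' hg.symm c (k.symm h.sq))] at this
  rw [sq_eqv h.es.aes (nm_mem h hg hv) k, mul_eq_one_iff_eq_inv, ← this]

theorem nm_of_ncomm (h : WP.Bg z) (hx : x ∈ QQ z) (hy : y ∈ QQ z) (n : ¬ Commute x y) : nm x y = z := by
  rw [nm, cj_def, ← mul_assoc, ← mul_assoc, h.es.aes.conj_of_ne hy hx fun l => n l.symm,
    mul_inv_cancel_right]

/-- The derived group of `C(z)`. -/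
abbrev DC (z : G) : Subgroup G := ⁅centralizer ({z} : Set G), centralizer ({z} : Set G)⁆

theorem nm_mem_DC (hx : Commute z x) (hy : Commute z y) : nm x y ∈ DC z := by
  have := commutator_mem_commutator (mem_cent.2 hy) (mem_cent.2 hx)
  rwa [commutatorElement_def, mul_assoc, mul_assoc, ← mul_assoc x] at this

theorem z_mem_DC (h : WP.Bg z) : z ∈ DC z := by
  obtain ⟨x, hx, y, hy, n⟩ := h.es.nonab
  have := nm_mem_DC (h.comm hx) (h.comm hy)
  rwa [nm_of_ncomm h hx hy n] at this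

theorem sq_key (h : WP.Bg w) (hw : w ∈ DC z) (hz : z ∈ QQ w) (zz : z * z = 1) (hd : b * b ∈ QQ w)
    (wb : Commute w b) (zb : Commute z b) : b * b ∈ DC z := by
  have aes := h.es.aes
  have fin : ∀ y ∈ QQ w, Eqv w (b * b) (nm b y) → Commute z y → b * b ∈ DC z := fun y _ k c => by
    rcases k with k | k <;> rw [k]
    exacts [nm_mem_DC zb c, mul_mem hw (nm_mem_DC zb c)]
  obtain ⟨y, hy, k⟩ := exists_nm h wb hd fun v _ l => by
    refine (cj_eq_self_iff.1 ?_).symm
    rcases l with l | l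
    · rw [← cj_cj, l, l]
    · rw [← cj_cj, l, cj_mul, l, cj_of_commute wb.symm, h.es.z_mul_z_mul]
  by_cases c : Commute z y
  · exact fin y hy k c
  by_cases l : ∀ v ∈ QQ w, Eqv w (cj b v) v → Commute v z
  swap
  · push Not at l
    obtain ⟨v, hv, l, n⟩ := l
    refine fin _ (mul_mem hy hv) (k.trans h.sq (Eqv.symm h.sq ((nm_mul_eqv h wb hy hv).trans h.sq ?_)))
      (aes.comm_mul_of_ne hy hv hz (fun m => c m.symm) n).symm
    have := ((mem_zp h).1 ((mem_zpowers_iff_of_sq h.sq).2 ((eqv_iff_nm h hv).1 l))).mul_left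
      (h.comm (nm_mem h wb hy)).eq
    rwa [mul_one] at this
  obtain ⟨y', hy', k'⟩ := exists_nm h wb hz l
  have c' : Commute (b * b) y' := nm_eq_one_iff.1 (by
    rw [nm_mul, cj_of_commute (comm_of_eqv' wb.symm zb.symm (k'.symm h.sq)),
      ← sq_eqv aes (nm_mem h wb hy') k', zz])
  refine absurd (bf_eq_zero.1 ?_ : _ * _ = _).symm c
  rw [aes.bf_eqv_right hy k', bf_nm h wb hy' hy, ← bf_eq_zero.2 c'.symm.eq, aes.bf_eqv_right hy' k,
    bf_nm h wb hy hy', bf_comm y, ← bf_cj_cj b y' (cj b y), cj_cj, cj_def (b * b),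
    aes.bf_eqv_right (h.cj_mem wb hy') (aes.eqv_conj hd hy), bf_comm y]

theorem sq_disj (h : WP.Bg z) (zb : Commute z b) (dd : b * b * (b * b) = 1) (hd : b * b ∉ QQ z)
    (hA : ∀ x ∈ QQ z, Commute (b * b) x → ∀ y ∈ QQ z, Commute (b * b) y → Commute x y)
    (hb : ∀ x ∈ QQ z, Commute (b * b) x → Commute b x) : False := by
  have zd := zb.mul_right zb
  have bd : Commute b (b * b) := (Commute.refl b).mul_right (Commute.refl b)
  have sq : ∀ v, Commute b (nm b v) → nm (b * b) v = nm b v * nm b v := fun v c => by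
    rw [nm_mul, cj_of_commute c]
  have inv : ∀ x ∈ QQ z, Commute (b * b) x → x * x = 1 → Eqv z x 1 := fun x hx c xx => by
    obtain ⟨v, hv, k⟩ := exists_nm h zb hx fun v hv l => hA v hv (cj_eq_self_iff.1 (by
      rcases l with l | l
      · rw [← cj_cj, l, l]
      · rw [← cj_cj, l, cj_mul, l, cj_of_commute zb.symm, h.es.z_mul_z_mul])) x hx c
    have := sq v (comm_of_eqv' zb.symm (hb x hx c) (k.symm h.sq))
    rw [← sq_eqv h.es.aes (nm_mem h zb hv) k, xx, nm_eq_one_iff] at this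
    rwa [nm_eq_one_iff.2 (hb v hv this)] at k
  obtain ⟨v, hv, n⟩ : ∃ v ∈ QQ z, ¬ Eqv z (nm (b * b) v) 1 := by
    by_contra k
    push Not at k
    exact hd (h.lg.triv _ zd fun v hv => (eqv_iff_nm h hv).2 ((mem_zpowers_iff_of_sq h.sq).1
      ((mem_zp h).2 (k v hv))))
  have hu := nm_mem h zd hv
  have e := cj_nm_self dd v
  have perp : ∀ x ∈ QQ z, Commute (b * b) x → bf x (nm (b * b) v) = 0 := fun x hx c => by
    rw [bf_nm' h zd hv hx, nm_eq_one_iff.2 c.inv_left, bf_eq_zero, one_mul, mul_one]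
  generalize nm (b * b) v = u at n hu e perp
  have uu : u * u = z := (h.es.sq u hu).resolve_left fun k => n (inv u hu (cj_eq_self_iff.1 (by
    rw [e, inv_eq_of_mul_eq_one_right k])) k)
  have e' : u⁻¹ = z * u := by rw [inv_eq_iff_mul_eq_one, ← mul_assoc, ← (h.comm hu).eq, mul_assoc, uu, h.sq]
  have c : Commute (b * b) (nm b u) := cj_eq_self_iff.1 (by
    rw [nm, cj_mul, cj_cj, ← bd.eq, ← cj_cj b (b * b), cj_inv (b * b), e, e', ← nm, ← e', ← nm, e',
      nm_z_mul zb (h.comm hu)])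
  have m := nm_mem h zb hu
  have := sf_nm h zb hu
  rw [bf_comm, perp _ m c, sf_eq_zero, ← sq u (hb _ m c), nm, cj_inv, e, inv_inv, uu] at this
  exact h.ne_one this

/-- The square of an element of `C_{Q_d}(z)` lies in the derived group of `C(z)`. -/
theorem sq_mem_DC (h : WP.Bg z) (hd : IsConj z d) (zd : Commute z d) (hb : b ∈ QQ d) (zb : Commute z b) :
    b * b ∈ DC z := by
  have h' := h.of_isConj hd
  have aes := h'.es.aes
  by_contra n
  obtain rfl : b * b = d := (h'.es.sq b hb).resolve_left fun k => n (k ▸ one_mem _)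
  have hB : ∀ x ∈ QQ (b * b), Commute z x → ∀ y ∈ QQ (b * b), Commute z y → Commute x y :=
    fun x hx c y hy c' => by
      by_contra k
      exact n (nm_of_ncomm h' hx hy k ▸ nm_mem_DC c c')
  by_cases k : b * b ∈ QQ z
  · exact n (sq_key h (z_mem_DC h) h.z_mem h.sq k zb zb)
  obtain ⟨f, hf, l, nf⟩ : ∃ f ∈ QQ (b * b), Eqv (b * b) (cj z f) f ∧ ¬ Commute f b := by
    by_contra l
    push Not at l
    obtain ⟨v, hv, l⟩ := exists_nm h' zd.symm hb l
    exact h'.ne_one (sq_of_nm h' h.sq zd.symm hv l zb)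
  replace l := l.resolve_left fun l => nf (hB f hf (cj_eq_self_iff.1 l) b hb zb)
  have e : cj f⁻¹ z = b * b * z := by
    rw [cj_def, inv_inv, mul_assoc, ← mul_inv_cancel_right (z * f) z⁻¹, inv_inv, ← cj_def, l,
      (h'.comm hf).eq]
    group
  have e' : cj f⁻¹ (b * b * z) = z := by
    rw [← e, cj_cj, ← mul_inv_rev]
    refine cj_of_commute (Commute.inv_left ?_)
    rcases h'.es.sq f hf with k | k <;> rw [k]
    exacts [Commute.one_left z, zd.symm]
  have hA : ∀ x ∈ QQ z, Commute (b * b) x → ∀ y ∈ QQ z, Commute (b * b) y → Commute x y :=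
    fun x hx c y hy c' => by
      by_contra k
      have := nm_mem_DC (e' ▸ commute_cj.2 (c.mul_left (h.comm hx)) : Commute z (cj f⁻¹ x))
        (e' ▸ commute_cj.2 (c'.mul_left (h.comm hy)) : Commute z (cj f⁻¹ y))
      rw [nm, ← cj_inv, ← cj_dist, ← cj_mul, ← nm, nm_of_ncomm h hx hy k, e] at this
      exact n (by simpa using mul_mem this (inv_mem (z_mem_DC h)))
  by_cases hD : ∀ w ∈ QQ z, w ∈ QQ (b * b) → w = 1
  · refine sq_disj h zb h'.sq k hA fun x hx c => nm_eq_one_iff.1 (hD _ (nm_mem h zb hx) ?_)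
    have := mul_mem (h'.cj_mem c hb) (inv_mem hb)
    simpa [nm, cj_def, mul_assoc] using this
  push Not at hD
  obtain ⟨w, w1, w2, w0⟩ := hD
  have zw := h.comm w1
  have wz : w ≠ z := fun l => k (bg_symm h' hd.symm (l ▸ w2))
  have ww : w * w = 1 := (h.es.sq w w1).resolve_right fun l =>
    ((h'.es.sq w w2).elim (fun m => h.ne_one (l.symm.trans m)) fun m => k (m ▸ l ▸ h.z_mem))
  have wb := hB w w2 zw b hb zb
  have S : ∀ x ∈ QQ (b * b), Commute z x → Commute f x → ∃ v ∈ QQ (b * b), Eqv (b * b) x (nm z v) :=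
    fun x hx c c' => exists_nm h' zd.symm hx fun v hv m => m.elim
      (fun m => hB v hv (cj_eq_self_iff.1 m) x hx c) fun m => by
        have := hB _ (mul_mem hv hf) (cj_eq_self_iff.1 (by
          rw [cj_mul, m, l, mul_assoc, ← mul_assoc v, ← (h'.comm hv).eq, mul_assoc (b * b) v,
            h'.es.z_mul_z_mul])) x hx c
        simpa using this.mul_left c'.inv_left
  have fw : Commute f w := by
    by_contra m
    obtain ⟨v, hv, m⟩ := S _ (mul_mem w2 hb) (zw.mul_right zb)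
      (aes.comm_mul_of_ne w2 hb hf (fun r => m r.symm) fun r => nf r.symm).symm
    have := sq_of_nm h' h.sq zd.symm hv m (zw.mul_right zb)
    rw [wb.symm.mul_mul_mul_comm, ww, one_mul] at this
    exact h'.ne_one this
  obtain ⟨v, hv, m⟩ := S w w2 zw fw
  have c1 : IsConj z (w * z) := by
    have e1 : nm z v * z = cj v z := nm_mul_self z v
    rcases m with m | m
    · rw [m, e1]; exact LX.isConj_cj v z
    · rw [m, mul_assoc, e1, ← cj_of_commute (h'.comm hv).symm, ← cj_mul, ← e, cj_cj]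
      exact LX.isConj_cj _ z
  obtain ⟨q, hq, nq⟩ := h.es.exists_not_comm w1 w0 wz
  have c2 : IsConj z w := c1.trans (IsConj.symm (isConj_iff.2
    ⟨q, (h.es.aes.conj_of_ne hq w1 (Ne.symm nq)).trans zw.eq⟩))
  have hw := h.of_isConj c2
  have z1 := bg_symm h c2 w1
  have d1 := bg_symm h' (hd.symm.trans c2) w2
  refine n (sq_key hw ?_ z1 h.sq d1 wb zb)
  obtain ⟨p, hp, c, np⟩ : ∃ p ∈ QQ w, p * z = z * p ∧ p * (b * b) ≠ b * b * p := by
    by_contra r
    push Not at r
    rcases hw.es.center_centralizer z1 d1 r with (r | r) | r | r <;> rw [r] at k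
    exacts [k (one_mem _), k (mul_mem w1 (one_mem _)), k h.z_mem, k (mul_mem w1 h.z_mem)]
  exact nm_of_ncomm hw hp d1 np ▸ nm_mem_DC c.symm zd

end Cfsg.Agent.Wk
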