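import Mathlib
import Cfsg.Agent.Wk.Sq
import Cfsg.Agent.Wk.Geo
import Cfsg.Agent.Wk.UniA

/-! In the unitary case `C_{Q_z}(a)` lies in every subgroup of index two of `C(a)`. -/

set_option autoImplicit false
set_option linter.unusedSectionVars false

namespace Cfsg.Agent.Wk

open Cfsg.Agent.Spor Cfsg.Agent.Spor.TT Cfsg.Agent.LX Cfsg.Agent.Gr6 Cfsg.Agent.W3 Subgroup

variable {G : Type*} [Group G] [Finite G] {z a b c d e f g t u v w x y : G} {K : Subgroup G}

theorem PW.exists_not_comm_cj (h : PW z a) : ∃ g, Commute z g ∧ ¬ Commute a (cj g a) := by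
  have : Fact (Nat.Prime 2) := ⟨Nat.prime_two⟩
  obtain ⟨V, _, _, π, χ, ρ, R⟩ := exists_qrep h.big
  by_contra k
  push Not at k
  refine h.not_mem ((R.ker a h.comm).1 (eq_one_of_conj_comm GT.pCore_quotient_pCore
    (by rw [← R.mul _ _ h.comm h.comm, h.sq, R.one]) fun s => ?_))
  obtain ⟨g, hg, rfl⟩ := R.sur s
  have c := (h.cjz hg).comm
  rw [R.cj_eq hg h.comm, Commute, SemiconjBy, ← R.mul _ _ h.comm c, ← R.mul _ _ c h.comm, (k g hg).eq]

theorem PW.cj_U' (h : PW z a) (h' : PW z b) (hg : Commute z g) (e : cj g a = b) (hu : u ∈ h.U) :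
    cj g u ∈ h'.U := by
  subst e; exact h.cj_U hg hu

omit [Finite G] in
theorem braid_cj (ha : a * a = 1) (hb : b * b = 1) (k : (a * b) ^ 3 = 1) :
    cj (cj a b) a = b ∧ cj (cj a b) b = a ∧ cj b (cj a b) = a := by
  have ia := inv_eq_of_mul_eq_one_right ha
  have ib := inv_eq_of_mul_eq_one_right hb
  have h1 : ∀ w, a * (a * w) = w := fun w => by rw [← mul_assoc, ha, one_mul]
  have h2 : ∀ w, b * (b * w) = w := fun w => by rw [← mul_assoc, hb, one_mul]
  have h3 : a * (b * a) = b * (a * b) := by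
    have := congrArg (· * (b * (a * b))) k
    simpa only [pow_succ, pow_zero, one_mul, mul_assoc, h1, h2, hb, mul_one] using this
  have h4 : ∀ w, a * (b * (a * w)) = b * (a * (b * w)) := fun w => by
    simpa only [mul_assoc] using congrArg (· * w) h3
  simp only [cj_def, mul_inv_rev, ia, ib, mul_assoc, h1]
  exact ⟨by rw [h4, h2, ha, mul_one], by rw [h4, h2, h1, h2], by rw [h4, h2, hb, mul_one]⟩

namespace AllS

variable (H : AllS z)
include H

theorem exists_adj (h : Sm z a) (h' : Sm z b) (n : ¬ Commute a b) (hx : x ∈ h'.U) :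
    ∃ u ∈ h.U, Eqv z x (cm b u) := by
  have zz := h.big.sq
  obtain ⟨d1, m1, d2, m2, n1, n2, n3⟩ := h.exists_D
  have key : ∀ d ∈ QQ z ⊓ QQ a, Eqv z (cm b d) 1 → d = 1 := fun d m l => by
    by_contra k
    exact h.not_eqv m.2 k (H.nd h h' n (h.D_U h.e0 m.1 m.2) (h'.comm_of_eqv h'.e0 m.1 l))
  have u1 := h.D_U h.e0 m1.1 m1.2
  have u2 := h.D_U h.e0 m2.1 m2.2
  rcases h'.U_cases (h'.cm_mem_U m1.1) (h'.cm_mem_U m2.1) (fun l => n1 (key _ m1 l))
    (fun l => n2 (key _ m2 l)) (fun l => n3 (by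
      have := (h'.cm_mul_eqv m2.1 m1.1).trans zz (l.mul_right _)
      rw [h'.U_sq h'.e0 (h'.cm_mem_U m1.1)] at this
      have := key _ (mul_mem m2 m1) this
      rwa [mul_eq_one_iff_eq_inv, inv_eq_of_mul_eq_one_right (h.D_sq m1.1 m1.2), eq_comm] at this))
    hx with k | k | k | k
  · exact ⟨1, one_mem _, by rwa [(cm_eq_one_iff h'.sq).2 (Commute.one_right b)]⟩
  · exact ⟨_, u1, k⟩
  · exact ⟨_, u2, k⟩
  · exact ⟨_, mul_mem u1 u2, k.trans zz ((h'.cm_mul_eqv m1.1 m2.1).symm zz)⟩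

theorem loop (h : Sm z a) (hb : Sm z b) (hc : Sm z c) (ab : ¬ Commute a b) (ac : ¬ Commute a c)
    (bc : ¬ Commute b c) (hv : v ∈ QQ z) (av : Commute a v) (bv : Commute b v)
    (k : ∀ g, Commute z g → Commute a g → nm g v ∈ h.U) : Commute c v := by
  have zz := h.big.sq
  obtain ⟨e1, e2, -⟩ := braid_cj h.sq hb.sq (H.three h.nb hb.nb ab)
  obtain ⟨e3, e4, -⟩ := braid_cj hb.sq hc.sq (H.three hb.nb hc.nb bc)
  obtain ⟨e5, -, -⟩ := braid_cj h.sq hc.sq (H.three h.nb hc.nb ac)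
  have t1 := hb.cjz h.comm
  have t2 := hc.cjz hb.comm
  have t3 := hc.cjz h.comm
  have v1 : Commute (cj a b) v := (commute_cj_left_of av).2 bv
  have m0 := k (cj a b * cj b c * cj a c) ((t1.comm.mul_right t2.comm).mul_right t3.comm)
    (cj_eq_self_iff.1 (by rw [← cj_cj, ← cj_cj, e5, e4, e2])).symm
  have m2 := hb.cj_U' hc.toPW t2.comm e3 (h.cj_U' hb.toPW t1.comm e1 m0)
  have su := hc.cm_mem_U hv
  have ss := hc.U_sq hc.e0 su
  have sq := hc.cm_mem hv
  have e6 : cj c v = cm c v * v := by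
    rw [← inv_eq_of_mul_eq_one_right ss, cm_eq c v hc.sq, mul_inv_rev, cj_inv, inv_inv,
      inv_mul_cancel_right]
  by_contra n
  have s0 : ¬ Eqv z (cm c v) 1 := fun l => n (hc.comm_of_eqv hc.e0 hv l)
  have e7 : ∀ {a : G}, a * a = 1 → Commute a v → cj (cj a c) v = cm c v * cm a (cm c v) * v :=
    fun {a} aa av => by
      rw [cj_def a c, ← cj_cj, ← cj_cj, cj_of_commute av.inv_left, e6, cj_mul, cj_of_commute av,
        cm_eq a _ aa, ← mul_assoc, ss, one_mul, inv_eq_of_mul_eq_one_right ss]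
  rw [nm, cj_mul, cj_mul, cj_of_commute v1, cj_cj, cj_cj, ← mul_assoc, ← mul_assoc, mul_assoc (cj b c),
    t1.sq, mul_one, t2.sq, one_mul, cj_inv, e7 h.sq av, e7 hb.sq bv] at m2
  generalize cm c v = s at su ss sq s0 m2
  have xu := h.cm_mem_U sq
  have yu := hb.cm_mem_U sq
  have x0 : ¬ Eqv z (cm a s) 1 := fun l =>
    s0 (H.nd hc h (fun m => ac m.symm) su (h.comm_of_eqv h.e0 sq l))
  have y0 : ¬ Eqv z (cm b s) 1 := fun l =>
    s0 (H.nd hc hb (fun m => bc m.symm) su (hb.comm_of_eqv hb.e0 sq l))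
  have xx := h.U_sq h.e0 xu
  have yy := hb.U_sq hb.e0 yu
  generalize cm a s = x at xu x0 xx m2
  generalize cm b s = y at yu y0 yy m2
  have r : y * x ∈ hc.U := by
    have := mul_mem (mul_mem (inv_mem su) m2) su
    rw [← inv_eq_of_mul_eq_one_right xx]
    simpa [mul_assoc] using this
  have yq := hb.U_le yu
  have c1 : Commute y x := by
    have := inv_eq_of_mul_eq_one_right (hc.U_sq hc.e0 r)
    rw [mul_inv_rev, inv_eq_of_mul_eq_one_right xx, inv_eq_of_mul_eq_one_right yy] at this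
    exact this.symm
  have r0 : ¬ Eqv z (y * x) 1 := fun l => by
    have := l.mul_right x
    rw [mul_assoc, xx, mul_one, one_mul] at this
    exact ab (Uni.comm_of_mul h hb (H.inter h hb (h.U_eqv this xu) yu y0))
  have := (h.eqv_cj yq).trans zz ((h.cm_eqv yq xu x0 c1 fun l =>
    y0 (H.nd hb h (fun m => ab m.symm) yu l)).mul_left (h.big.comm yq).eq)
  have := H.inter t1 hc (t1.U_eqv (this.symm zz) (hb.cj_U h.comm yu)) r r0
  exact n (hc.A_of_C hc.e0 hv fun u hu => t1.A_U hv v1 (t1.U_le_of_mul hc.toPW this hu))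

theorem mem_U_of_fix (h : Sm z a) (hv : v ∈ QQ z) (av : Commute a v)
    (k : ∀ g, Commute z g → Commute a g → nm g v ∈ h.U) : v ∈ h.U := by
  have zz := h.big.sq
  obtain ⟨g, hg, ab⟩ := h.exists_not_comm_cj
  have hb := h.cjz hg
  generalize cj g a = b at ab hb
  obtain ⟨u, hu, l⟩ := H.exists_adj h hb ab (hb.cm_mem_U hv)
  have uq := h.U_le hu
  have m := mul_mem hv uq
  have bv : Commute b (v * u) := hb.comm_of_eqv hb.e0 m (by
    rw [← hb.U_sq hb.e0 (hb.cm_mem_U uq)]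
    exact (hb.cm_mul_eqv hv uq).trans zz (l.mul_right _))
  replace av := av.mul_right (h.U_A h.e0 hu)
  replace k : ∀ g, Commute z g → Commute a g → nm g (v * u) ∈ h.U := fun g h1 h2 =>
    h.U_eqv (nm_mul_eqv h.big h1 hv uq) (mul_mem (k g h1 h2)
      (mul_mem hu (h.cj_mem_U h1 h2 (inv_mem hu))))
  suffices v * u ∈ h.U by simpa using mul_mem this (inv_mem hu)
  generalize v * u = v at m bv av k
  by_contra n
  obtain ⟨d, m1, -, -, n1, -⟩ := h.exists_D
  obtain ⟨y, hy, zy, e⟩ := h.sym.surj m av n m1.2 m1.1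
  have ay := h.symm.big.comm hy
  have hc := hb.cjz zy.inv_right
  have ac : ¬ Commute a (cj y⁻¹ b) := fun l => ab ((commute_cj_right_of ay.symm.inv_left).1 l)
  have cv : ¬ Commute (cj y⁻¹ b) v := fun l => by
    rw [commute_cj_left, inv_inv, ← nm_mul_self, e] at l
    exact h.not_eqv m1.2 n1 (H.nd h hb ab (h.D_U h.e0 m1.1 m1.2) (by simpa using l.mul_right bv.inv_right))
  by_cases bc : Commute b (cj y⁻¹ b)
  swap
  · exact cv (H.loop h hb hc ab ac bc m av bv k)
  refine cv (H.loop h (hb.cjz h.comm) hc (fun l => ab ((commute_cj_right_of (Commute.refl a)).1 l)) ac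
    (fun l => ac ?_) m av ((commute_cj_left_of av).2 bv) k)
  rw [← (braid_cj h.sq hb.sq (H.three h.nb hb.nb ab)).2.2]
  exact (commute_cj_left_of bc).2 l

theorem mem_idx (h : Sm z a) (hK : K.relIndex (centralizer {a}) = 2) (hQ : QQ a ≤ K) (hb : b ∈ QQ z)
    (ab : Commute a b) : b ∈ K := by
  have aes := h.big.es.aes
  have zK : z ∈ K := by
    obtain ⟨x, hx, ax, n⟩ := h.exists_A
    by_contra k
    refine n (h.mem_U_of_A h.e0 hx fun y hy ay => ?_)
    by_contra l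
    exact k (nm_of_ncomm h.big hy hx l ▸ idx_nm hK ay ax)
  have UK : h.U ≤ K := fun u hu => (h.U_D hu).elim (hQ ·) fun l =>
    (mul_mem_cancel_left zK).1 (hQ l)
  by_contra n
  obtain ⟨v, hv, k, nb⟩ := h.big.es.exists_sep (A := QQ z ⊓ centralizer {a} ⊓ K)
    (inf_le_left.trans inf_le_left) ⟨⟨h.big.z_mem, mem_cent.2 h.comm.symm⟩, zK⟩ hb fun l => n l.2
  have key : ∀ y ∈ QQ z, Commute a y → (Commute v y ↔ y ∈ K) := fun y hy ay =>
    ⟨fun l => by
      by_contra r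
      have : Commute v (y * b) := k _ ⟨⟨mul_mem hy hb, mem_cent.2 (ay.mul_right ab)⟩,
        (idx_mul hK ay ab).2 (iff_of_false r n)⟩
      exact nb (by simpa using (l.inv_right.mul_right this).eq),
    fun l => k _ ⟨⟨hy, mem_cent.2 ay⟩, l⟩⟩
  refine nb (h.A_U hb ab (H.mem_U_of_fix h hv (h.A_of_C h.e0 hv fun u hu =>
    ((key u (h.U_le hu) (h.U_A h.e0 hu)).2 (UK hu)).symm) fun g zg ag =>
      h.mem_U_of_A h.e0 (nm_mem h.big zg hv) fun y hy ay => bf_eq_zero.1 ?_))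
  rw [bf_nm h.big zg hv hy, bf_cj, bf_comm y, bf_comm _ v, bf_congr (x' := v) (y' := y)
    ((key _ (h.big.cj_mem zg.inv_right hy) ((commute_cj_right_of ag.symm.inv_left).2 ay)).trans
      ((idx_cj hK ag.inv_right ay).trans (key y hy ay).symm))]
  exact CharTwo.add_self_eq_zero _

end AllS

end Cfsg.Agent.Wk
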